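import Mathlib

/-! Three-closures of affine groups. -/

namespace Cfsg.Agent.PrimStruct

/-- A permutation of a vector space over `ZMod p`, `p ≠ 2`, that agrees on every triple of points
with an affine map and fixes `0` is additive. -/
theorem additive_of_threeClosure {p : ℕ} [Fact p.Prime] (hp : p ≠ 2) {V : Type*} [AddCommGroup V]
    [Module (ZMod p) V] (τ : Equiv.Perm V) (h0 : τ 0 = 0)
    (h : ∀ t : Fin 3 → V, ∃ (A : V ≃ₗ[ZMod p] V) (b : V), ∀ i, τ (t i) = A (t i) + b) (a b : V) :
    τ (a + b) = τ a + τ b := by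
  have h2 : (2 : ZMod p) ≠ 0 := by
    intro e
    have : ((2 : ℕ) : ZMod p) = 0 := by exact_mod_cast e
    rw [ZMod.natCast_eq_zero_iff] at this
    exact hp ((Nat.prime_dvd_prime_iff_eq Fact.out Nat.prime_two).mp this)
  have hmid : ∀ x y : V, τ ((2 : ZMod p)⁻¹ • (x + y)) = (2 : ZMod p)⁻¹ • (τ x + τ y) := by
    intro x y
    obtain ⟨A, c, hA⟩ := h ![x, y, (2 : ZMod p)⁻¹ • (x + y)]
    have e0 := hA 0; have e1 := hA 1; have e2 := hA 2
    simp only [Matrix.cons_val_zero, Matrix.cons_val_one] at e0 e1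
    simp only [Matrix.cons_val] at e2
    rw [e2, e0, e1, map_smul, map_add]
    have hc : c = (2 : ZMod p)⁻¹ • (c + c) := by
      rw [← two_smul (ZMod p) c, inv_smul_smul₀ h2]
    calc (2 : ZMod p)⁻¹ • (A x + A y) + c = (2 : ZMod p)⁻¹ • (A x + A y) + (2 : ZMod p)⁻¹ • (c + c) := by
          rw [← hc]
      _ = _ := by rw [← smul_add]; congr 1; abel
  have hsum := hmid (a + b) 0
  rw [add_zero, h0, add_zero] at hsum
  have := hmid a b
  rw [hsum] at this
  exact (smul_right_injective V (inv_ne_zero h2)) this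

/-- For `p ≠ 2` a permutation in the three-closure of the affine group is affine. -/
theorem affine_of_threeClosure {p : ℕ} [Fact p.Prime] (hp : p ≠ 2) {V : Type*} [AddCommGroup V]
    [Module (ZMod p) V] (σ : Equiv.Perm V)
    (h : ∀ t : Fin 3 → V, ∃ (A : V ≃ₗ[ZMod p] V) (b : V), ∀ i, σ (t i) = A (t i) + b) :
    ∃ (A : V ≃ₗ[ZMod p] V) (b : V), ∀ x, σ x = A x + b := by
  let τ : Equiv.Perm V := σ.trans (Equiv.addRight (-(σ 0)))
  have hτ : ∀ t : Fin 3 → V, ∃ (A : V ≃ₗ[ZMod p] V) (b : V), ∀ i, τ (t i) = A (t i) + b := by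
    intro t
    obtain ⟨A, b, hA⟩ := h t
    exact ⟨A, b - σ 0, fun i => by simp [τ, hA i]; abel⟩
  have h0 : τ 0 = 0 := by simp [τ]
  let f : V →+ V := AddMonoidHom.mk' τ (additive_of_threeClosure hp τ h0 hτ)
  refine ⟨LinearEquiv.ofBijective (f.toZModLinearMap p) τ.bijective, σ 0, fun x => ?_⟩
  change σ x = τ x + σ 0
  simp [τ]

/-- Linear equivalences carry a linearly independent family to any other. -/
theorem exists_linearEquiv_map {K V ι : Type*} [Field K] [AddCommGroup V] [Module K V]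
    [FiniteDimensional K V] [Finite ι] {v w : ι → V} (hv : LinearIndependent K v)
    (hw : LinearIndependent K w) : ∃ A : V ≃ₗ[K] V, ∀ i, A (v i) = w i := by
  let b := Module.Basis.sumExtend hv
  let c := Module.Basis.sumExtend hw
  haveI : Finite (ι ⊕ Module.Basis.sumExtendIndex hv) := Module.Finite.finite_basis b
  haveI : Finite (ι ⊕ Module.Basis.sumExtendIndex hw) := Module.Finite.finite_basis c
  haveI : Finite (Module.Basis.sumExtendIndex hv) := Finite.sum_right ι
  haveI : Finite (Module.Basis.sumExtendIndex hw) := Finite.sum_right ι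
  have hcard : Nat.card (Module.Basis.sumExtendIndex hv) =
      Nat.card (Module.Basis.sumExtendIndex hw) := by
    have h1 := Module.finrank_eq_nat_card_basis b
    rw [Module.finrank_eq_nat_card_basis c, Nat.card_sum, Nat.card_sum] at h1
    omega
  obtain ⟨e⟩ : Nonempty (Module.Basis.sumExtendIndex hv ≃ Module.Basis.sumExtendIndex hw) :=
    ⟨(Finite.equivFin _).trans ((finCongr hcard).trans (Finite.equivFin _).symm)⟩
  refine ⟨b.equiv c (Equiv.sumCongr (Equiv.refl ι) e), fun i => ?_⟩
  have hb : b (Sum.inl i) = v i := by simp [b, Module.Basis.sumExtend]; rfl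
  have hc : c (Sum.inl i) = w i := by simp [c, Module.Basis.sumExtend]; rfl
  rw [← hb, Module.Basis.equiv_apply, ← hc]
  simp

end Cfsg.Agent.PrimStruct
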