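import Mathlib

/-! Minimal Frobenius groups `K ⋊ ⟨ζ⟩` for two primes, as groups of permutations of a field. -/

set_option linter.style.haveILetI false

namespace Cfsg.Agent.PrimStruct

variable {K : Type*} [Field K]

/-- The maps `x ↦ ζ ^ i * x + b`. -/
def affFrob (ζ : Kˣ) : Subgroup (Equiv.Perm K) where
  carrier := {σ | ∃ (i : ℤ) (b : K), ∀ x, σ x = (ζ ^ i : Kˣ) * x + b}
  one_mem' := ⟨0, 0, fun x => by simp⟩
  mul_mem' := by
    rintro σ τ ⟨i, b, hσ⟩ ⟨j, c, hτ⟩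
    refine ⟨i + j, (ζ ^ i : Kˣ) * c + b, fun x => ?_⟩
    rw [Equiv.Perm.mul_apply, hσ, hτ, zpow_add, Units.val_mul]
    ring
  inv_mem' := by
    rintro σ ⟨i, b, hσ⟩
    refine ⟨-i, -((ζ ^ (-i) : Kˣ) * b), fun x => ?_⟩
    apply σ.injective
    rw [show σ (σ⁻¹ x) = x from σ.apply_symm_apply x, hσ, mul_add, mul_neg, ← mul_assoc,
      ← mul_assoc, ← Units.val_mul, ← zpow_add, add_neg_cancel, zpow_zero, Units.val_one]
    ring

/-- Translation by `b`. -/
def affTrans (ζ : Kˣ) (b : K) : affFrob ζ := ⟨Equiv.addRight b, 0, b, fun x => by simp⟩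

@[simp] theorem affTrans_apply (ζ : Kˣ) (b x : K) : (affTrans ζ b : Equiv.Perm K) x = x + b := rfl

/-- Multiplication by `ζ`. -/
def affMul (ζ : Kˣ) : affFrob ζ := ⟨Equiv.mulLeft₀ (ζ : K) ζ.ne_zero, 1, 0, fun x => by simp⟩

@[simp] theorem affMul_apply (ζ : Kˣ) (x : K) : (affMul ζ : Equiv.Perm K) x = (ζ : K) * x := rfl

theorem affTrans_add (ζ : Kˣ) (a b : K) : affTrans ζ (a + b) = affTrans ζ b * affTrans ζ a :=
  Subtype.ext (Equiv.ext fun x => by simp [add_assoc])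

theorem affTrans_zero (ζ : Kˣ) : affTrans ζ (0 : K) = 1 :=
  Subtype.ext (Equiv.ext fun x => by simp)

theorem affTrans_eq_one {ζ : Kˣ} {b : K} (h : affTrans ζ b = 1) : b = 0 := by
  simpa using congrArg (fun σ : affFrob ζ => (σ : Equiv.Perm K) 0) h

section

variable {P Q : ℕ} [Fact P.Prime] [CharP K P] {ζ : Kˣ}

theorem affTrans_pow (b : K) (m : ℕ) : affTrans ζ b ^ m = affTrans ζ ((m : K) * b) := by
  induction m with
  | zero => simp [affTrans_zero]
  | succ m ih => rw [pow_succ, ih, Nat.cast_succ, add_mul, one_mul, add_comm, affTrans_add]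

/-- An element is a translation or is killed by the order of `ζ`. -/
theorem eq_affTrans_or_pow_eq_one (hQ : Q.Prime) (hζ : orderOf ζ = Q) (σ : affFrob ζ) :
    (∃ b, σ = affTrans ζ b) ∨ σ ^ Q = 1 := by
  obtain ⟨σ, i, b, hσ⟩ := σ
  by_cases hi : (ζ ^ i : Kˣ) = 1
  · exact Or.inl ⟨b, Subtype.ext (Equiv.ext fun x => by simp [hσ, hi])⟩
  right
  have hne : (1 : K) - (ζ ^ i : Kˣ) ≠ 0 := fun h => hi (Units.ext (sub_eq_zero.mp h).symm)
  set x₀ := b / (1 - (ζ ^ i : Kˣ)) with hx₀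
  have hb : b = x₀ * (1 - (ζ ^ i : Kˣ)) := by rw [hx₀, div_mul_cancel₀ b hne]
  have hpow : ∀ (m : ℕ) (x : K), (σ ^ m) x - x₀ = ((ζ ^ i : Kˣ) : K) ^ m * (x - x₀) := by
    intro m
    induction m with
    | zero => simp
    | succ m ih =>
      intro x
      rw [pow_succ', Equiv.Perm.mul_apply, hσ, pow_succ', mul_assoc, ← ih, hb]
      ring
  apply Subtype.ext
  apply Equiv.ext
  intro x
  have h1 := hpow Q x
  have h2 : (ζ ^ i) ^ Q = 1 := by
    rw [← zpow_natCast, zpow_comm, zpow_natCast, ← hζ, pow_orderOf_eq_one, one_zpow]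
  rw [← Units.val_pow_eq_pow_val, h2, Units.val_one, one_mul] at h1
  simpa using h1

theorem affTrans_pow_char (b : K) : affTrans ζ b ^ P = 1 := by
  rw [affTrans_pow, CharP.cast_eq_zero, zero_mul, affTrans_zero]

theorem pow_eq_affTrans (hQ : Q.Prime) (hζ : orderOf ζ = Q) (σ : affFrob ζ) :
    ∃ b, σ ^ Q = affTrans ζ b := by
  rcases eq_affTrans_or_pow_eq_one hQ hζ σ with ⟨b, rfl⟩ | h
  · exact ⟨_, affTrans_pow b Q⟩
  · exact ⟨0, by rw [h, affTrans_zero]⟩

theorem orderOf_affFrob (hQ : Q.Prime) (hζ : orderOf ζ = Q) (σ : affFrob ζ) :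
    orderOf σ = 1 ∨ orderOf σ = P ∨ orderOf σ = Q := by
  rcases eq_affTrans_or_pow_eq_one hQ hζ σ with ⟨b, rfl⟩ | h
  · rcases (Nat.dvd_prime Fact.out).mp (orderOf_dvd_of_pow_eq_one (affTrans_pow_char (ζ := ζ) (P := P) b))
      with h | h
    · exact Or.inl h
    · exact Or.inr (Or.inl h)
  · rcases (Nat.dvd_prime hQ).mp (orderOf_dvd_of_pow_eq_one h) with h | h
    · exact Or.inl h
    · exact Or.inr (Or.inr h)

theorem orderOf_affTrans_one : orderOf (affTrans ζ (1 : K)) = P :=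
  orderOf_eq_prime (affTrans_pow_char 1) fun h => one_ne_zero (affTrans_eq_one h)

theorem orderOf_affMul (hQ : Q.Prime) (hζ : orderOf ζ = Q) : orderOf (affMul ζ) = Q := by
  haveI := Fact.mk hQ
  refine orderOf_eq_prime ?_ fun h => ?_
  · apply Subtype.ext
    apply Equiv.ext
    intro x
    have hpow : ∀ (m : ℕ) (x : K), ((affMul ζ : Equiv.Perm K) ^ m) x = ((ζ ^ m : Kˣ) : K) * x := by
      intro m
      induction m with
      | zero => simp
      | succ m ih => intro x; rw [pow_succ', Equiv.Perm.mul_apply, ih, pow_succ', Units.val_mul, affMul_apply, mul_assoc]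
    rw [SubmonoidClass.coe_pow, hpow, ← hζ, pow_orderOf_eq_one, Units.val_one, one_mul]
    rfl
  · have h1 : (ζ : K) = 1 := by
      simpa using congrArg (fun σ : affFrob ζ => (σ : Equiv.Perm K) 1) h
    rw [show ζ = 1 from Units.ext h1, orderOf_one] at hζ
    exact hQ.ne_one hζ.symm

/-- The additive group of `K` is irreducible under `ζ`. -/
def ZetaMinimal (ζ : Kˣ) : Prop :=
  ∀ B : AddSubgroup K, (∀ b ∈ B, (ζ : K) * b ∈ B) → ∀ b ∈ B, b ≠ 0 → B = ⊤

/-- A subgroup containing a non-trivial translation and normalised by an element outside the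
translations contains all translations. -/
theorem affTrans_mem (hQ : Q.Prime) (hζ : orderOf ζ = Q) (hmin : ZetaMinimal ζ)
    {H : Subgroup (affFrob ζ)} {σ : affFrob ζ} (hσ : ¬ ∃ b, σ = affTrans ζ b)
    (hn : ∀ h ∈ H, σ * h * σ⁻¹ ∈ H) {b : K} (hb : b ≠ 0) (hbH : affTrans ζ b ∈ H) (c : K) :
    affTrans ζ c ∈ H := by
  let B : AddSubgroup K :=
    { carrier := {u | affTrans ζ u ∈ H}
      zero_mem' := by
        change affTrans ζ 0 ∈ H
        rw [affTrans_zero]; exact H.one_mem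
      add_mem' := fun {u v} hu hv => by
        change affTrans ζ (u + v) ∈ H
        rw [affTrans_add]; exact H.mul_mem hv hu
      neg_mem' := fun {u} hu => by
        change affTrans ζ (-u) ∈ H
        have h1 : affTrans ζ (-u) = (affTrans ζ u)⁻¹ := eq_inv_of_mul_eq_one_left (by
          rw [← affTrans_add, add_neg_cancel, affTrans_zero])
        rw [h1]; exact H.inv_mem hu }
  obtain ⟨σ, i, d, hd⟩ := σ
  have hi : (ζ ^ i : Kˣ) ≠ 1 := fun h =>
    hσ ⟨d, Subtype.ext (Equiv.ext fun x => by simp [hd, h])⟩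
  have hclosed : ∀ u ∈ B, ((ζ ^ i : Kˣ) : K) * u ∈ B := by
    intro u hu
    change affTrans ζ _ ∈ H
    have he : affTrans ζ ((ζ ^ i : Kˣ) * u) =
        (⟨σ, i, d, hd⟩ : affFrob ζ) * affTrans ζ u * (⟨σ, i, d, hd⟩ : affFrob ζ)⁻¹ := by
      rw [eq_mul_inv_iff_mul_eq]
      exact Subtype.ext (Equiv.ext fun x => by simp [hd]; ring)
    rw [he]; exact hn _ hu
  -- `ζ` is a power of `ζ ^ i`
  have hmem : ζ ∈ Subgroup.zpowers (ζ ^ i) := by
    haveI := Fact.mk hQ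
    have hcard : Nat.card (Subgroup.zpowers ζ) = Q := by rw [Nat.card_zpowers, hζ]
    haveI : Finite (Subgroup.zpowers ζ) := Nat.finite_of_card_ne_zero (by rw [hcard]; exact hQ.ne_zero)
    have h := zpowers_eq_top_of_prime_card hcard
      (g := (⟨ζ ^ i, i, rfl⟩ : Subgroup.zpowers ζ)) (fun e => hi (congrArg Subtype.val e))
    obtain ⟨m, hm⟩ := Subgroup.mem_zpowers_iff.mp
      (h.symm ▸ Subgroup.mem_top (⟨ζ, Subgroup.mem_zpowers ζ⟩ : Subgroup.zpowers ζ) :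
        (⟨ζ, Subgroup.mem_zpowers ζ⟩ : Subgroup.zpowers ζ) ∈
          Subgroup.zpowers (⟨ζ ^ i, i, rfl⟩ : Subgroup.zpowers ζ))
    exact ⟨m, by simpa using congrArg Subtype.val hm⟩
  obtain ⟨m, hm⟩ := (isOfFinOrder_iff_pow_eq_one.mpr ⟨Q, hQ.pos, by
    rw [← zpow_natCast, zpow_comm, zpow_natCast, ← hζ, pow_orderOf_eq_one, one_zpow]⟩ :
      IsOfFinOrder (ζ ^ i)).mem_powers_iff_mem_zpowers.mpr hmem
  have hpows : ∀ (k : ℕ), ∀ u ∈ B, (((ζ ^ i) ^ k : Kˣ) : K) * u ∈ B := by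
    intro k
    induction k with
    | zero => intro u hu; simpa using hu
    | succ k ih =>
      intro u hu
      rw [pow_succ', Units.val_mul, mul_assoc]
      exact hclosed _ (ih u hu)
  have htop := hmin B (fun u hu => by
    have := hpows m u hu
    rwa [show (ζ ^ i) ^ m = ζ from hm] at this) b hbH hb
  exact (htop.symm ▸ AddSubgroup.mem_top c : c ∈ B)

theorem not_affTrans_of_orderOf (hQ : Q.Prime) (hPQ : P ≠ Q)
    {σ : affFrob ζ} (h : orderOf σ = Q) : ¬ ∃ b, σ = affTrans ζ b := by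
  rintro ⟨b, rfl⟩
  have := orderOf_dvd_of_pow_eq_one (affTrans_pow_char (ζ := ζ) (P := P) b)
  rw [h] at this
  exact hPQ ((Nat.prime_dvd_prime_iff_eq hQ Fact.out).mp this).symm

theorem eq_affTrans_of_orderOf (hQ : Q.Prime) (hζ : orderOf ζ = Q) (hPQ : P ≠ Q)
    {σ : affFrob ζ} (h : orderOf σ = P) : ∃ b, σ = affTrans ζ b := by
  rcases eq_affTrans_or_pow_eq_one hQ hζ σ with h' | h'
  · exact h'
  · have := orderOf_dvd_of_pow_eq_one h'
    rw [h] at this
    exact absurd ((Nat.prime_dvd_prime_iff_eq Fact.out hQ).mp this) hPQ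

theorem eq_top_of_orders (hQ : Q.Prime) (hζ : orderOf ζ = Q) (hmin : ZetaMinimal ζ) (hPQ : P ≠ Q)
    {H : Subgroup (affFrob ζ)} {u v : affFrob ζ} (hu : u ∈ H) (hv : v ∈ H)
    (hou : orderOf u = P) (hov : orderOf v = Q) : H = ⊤ := by
  obtain ⟨b, rfl⟩ := eq_affTrans_of_orderOf hQ hζ hPQ hou
  have hv' := not_affTrans_of_orderOf (P := P) hQ hPQ hov
  have hb : b ≠ 0 := fun e => by
    rw [e, affTrans_zero, orderOf_one] at hou
    exact (Fact.out : P.Prime).ne_one hou.symm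
  have hT := affTrans_mem hQ hζ hmin hv' (fun h hh => H.mul_mem (H.mul_mem hv hh) (H.inv_mem hv))
    hb hu
  obtain ⟨v, i, d, hd⟩ := v
  have hi : (ζ ^ i : Kˣ) ≠ 1 := fun h => hv' ⟨d, Subtype.ext (Equiv.ext fun x => by simp [hd, h])⟩
  rw [eq_top_iff]
  rintro ⟨σ, j, c, hσ⟩ -
  -- `ζ ^ j` is a power of `ζ ^ i`
  obtain ⟨m, hm⟩ : ∃ m : ℕ, (ζ ^ i) ^ m = ζ ^ j := by
    haveI := Fact.mk hQ
    have hcard : Nat.card (Subgroup.zpowers ζ) = Q := by rw [Nat.card_zpowers, hζ]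
    haveI : Finite (Subgroup.zpowers ζ) := Nat.finite_of_card_ne_zero (by rw [hcard]; exact hQ.ne_zero)
    obtain ⟨m, hm⟩ : (⟨ζ ^ j, j, rfl⟩ : Subgroup.zpowers ζ) ∈
        Submonoid.powers (⟨ζ ^ i, i, rfl⟩ : Subgroup.zpowers ζ) :=
      (isOfFinOrder_of_finite _).mem_powers_iff_mem_zpowers.mpr
        ((zpowers_eq_top_of_prime_card hcard (g := (⟨ζ ^ i, i, rfl⟩ : Subgroup.zpowers ζ))
          (fun e => hi (congrArg Subtype.val e))).symm ▸
          Subgroup.mem_top _)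
    exact ⟨m, by simpa using congrArg Subtype.val hm⟩
  have hlin : ∀ k : ℕ, ∃ d', ∀ x, (v ^ k) x = (((ζ ^ i) ^ k : Kˣ) : K) * x + d' := by
    intro k
    induction k with
    | zero => exact ⟨0, fun x => by simp⟩
    | succ k ih =>
      obtain ⟨d', hd'⟩ := ih
      refine ⟨(ζ ^ i : Kˣ) * d' + d, fun x => ?_⟩
      rw [pow_succ', Equiv.Perm.mul_apply, hd', hd, pow_succ' (ζ ^ i), Units.val_mul]
      ring
  obtain ⟨d', hd'⟩ := hlin m
  have he : (⟨σ, j, c, hσ⟩ : affFrob ζ) =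
      affTrans ζ (c - d') * (⟨v, i, d, hd⟩ : affFrob ζ) ^ m := by
    refine Subtype.ext (Equiv.ext fun x => ?_)
    rw [Subgroup.coe_mul, SubmonoidClass.coe_pow, Equiv.Perm.mul_apply, hd', affTrans_apply, hm, hσ]
    ring
  rw [he]
  exact H.mul_mem (hT _) (H.pow_mem hv m)

theorem pow_mem_of_normal (hQ : Q.Prime) (hζ : orderOf ζ = Q) (hmin : ZetaMinimal ζ) (hPQ : P ≠ Q)
    {N : Subgroup (affFrob ζ)} (hN : N.Normal) (hN1 : N ≠ ⊥) (σ : affFrob ζ) : σ ^ Q ∈ N := by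
  have hz := not_affTrans_of_orderOf (P := P) hQ hPQ (orderOf_affMul hQ hζ)
  obtain ⟨b, hb, hbN⟩ : ∃ b : K, b ≠ 0 ∧ affTrans ζ b ∈ N := by
    obtain ⟨⟨n, hn⟩, hne⟩ := Subgroup.ne_bot_iff_exists_ne_one.mp hN1
    by_cases hnt : ∃ b, n = affTrans ζ b
    · obtain ⟨b, rfl⟩ := hnt
      exact ⟨b, fun e => hne (Subtype.ext (show affTrans ζ b = 1 by rw [e, affTrans_zero])), hn⟩
    · obtain ⟨n, i, d, hd⟩ := n
      have hi : (ζ ^ i : Kˣ) ≠ 1 := fun h => hnt ⟨d, Subtype.ext (Equiv.ext fun x => by simp [hd, h])⟩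
      refine ⟨1 - (ζ ^ i : Kˣ), fun e => hi (Units.ext (sub_eq_zero.mp e).symm), ?_⟩
      have he : affTrans ζ (1 - (ζ ^ i : Kˣ)) =
          affTrans ζ 1 * (⟨n, i, d, hd⟩ : affFrob ζ) * (affTrans ζ 1)⁻¹ *
            (⟨n, i, d, hd⟩ : affFrob ζ)⁻¹ := by
        rw [eq_mul_inv_iff_mul_eq, eq_mul_inv_iff_mul_eq]
        exact Subtype.ext (Equiv.ext fun x => by simp [hd]; ring)
      rw [he]
      exact N.mul_mem (hN.conj_mem _ hn _) (N.inv_mem hn)
  obtain ⟨c, hc⟩ := pow_eq_affTrans hQ hζ σ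
  rw [hc]
  exact affTrans_mem hQ hζ hmin hz (fun h hh => hN.conj_mem h hh _) hb hbN c

theorem mul_pow_ne_one (hQ : Q.Prime) (hζ : orderOf ζ = Q) (hPQ : P ≠ Q) :
    ∃ u v : affFrob ζ, u ^ Q = 1 ∧ v ^ Q = 1 ∧ (u * v) ^ Q ≠ 1 := by
  refine ⟨affTrans ζ 1 * affMul ζ, (affMul ζ)⁻¹, ?_, ?_, ?_⟩
  · refine (eq_affTrans_or_pow_eq_one hQ hζ _).resolve_left fun ⟨b, hb⟩ => ?_
    refine not_affTrans_of_orderOf (P := P) hQ hPQ (orderOf_affMul hQ hζ) ⟨b + -1, ?_⟩
    rw [affTrans_add, ← hb, ← mul_assoc, ← affTrans_add, add_neg_cancel, affTrans_zero, one_mul]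
  · rw [inv_pow, ← orderOf_affMul hQ hζ, pow_orderOf_eq_one, inv_one]
  · rw [mul_inv_cancel_right]
    intro h
    have := orderOf_dvd_of_pow_eq_one h
    rw [orderOf_affTrans_one (P := P)] at this
    exact hPQ ((Nat.prime_dvd_prime_iff_eq Fact.out hQ).mp this)

theorem mul_pow_char_eq_one (hQ : Q.Prime) (hζ : orderOf ζ = Q) (hPQ : P ≠ Q) {u v : affFrob ζ}
    (hu : u ^ P = 1) (hv : v ^ P = 1) : (u * v) ^ P = 1 := by
  have h : ∀ w : affFrob ζ, w ^ P = 1 → ∃ b, w = affTrans ζ b := by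
    intro w hw
    rcases (Nat.dvd_prime Fact.out).mp (orderOf_dvd_of_pow_eq_one hw) with h1 | h1
    · exact ⟨0, by rw [orderOf_eq_one_iff.mp h1, affTrans_zero]⟩
    · exact eq_affTrans_of_orderOf hQ hζ hPQ h1
  obtain ⟨a, rfl⟩ := h u hu
  obtain ⟨b, rfl⟩ := h v hv
  rw [← affTrans_add, affTrans_pow_char]

end

/-- A field for two primes. -/
theorem exists_zetaMinimal (P Q : ℕ) [Fact P.Prime] (hQ : Q.Prime) (hPQ : P ≠ Q) :
    ∃ ζ : (GaloisField P (orderOf (P : ZMod Q)))ˣ, orderOf ζ = Q ∧ ZetaMinimal ζ := by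
  haveI := Fact.mk hQ
  set f := orderOf (P : ZMod Q) with hf
  have hP0 : (P : ZMod Q) ≠ 0 := by
    rw [Ne, ZMod.natCast_eq_zero_iff]
    intro h
    exact hPQ ((Nat.prime_dvd_prime_iff_eq hQ Fact.out).mp h).symm
  have hf0 : f ≠ 0 := by
    rw [hf, Ne, orderOf_eq_zero_iff', not_forall]
    exact ⟨Q - 1, fun h => h (Nat.sub_pos_of_lt hQ.one_lt) (ZMod.pow_card_sub_one_eq_one hP0)⟩
  let K := GaloisField P f
  have hcard : Nat.card K = P ^ f := GaloisField.card P f hf0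
  haveI : Fintype K := Fintype.ofFinite K
  have hdvd : Q ∣ Nat.card Kˣ := by
    rw [Nat.card_units, hcard]
    rw [← ZMod.natCast_eq_zero_iff, Nat.cast_sub (Nat.one_le_pow _ _ (Fact.out : P.Prime).pos)]
    push_cast
    rw [hf, pow_orderOf_eq_one, sub_self]
  obtain ⟨ζ, hζ⟩ := exists_prime_orderOf_dvd_card' Q hdvd
  refine ⟨ζ, hζ, fun B hB b hbB hb => ?_⟩
  let R : Subring K :=
    { carrier := {x | ∀ u ∈ B, x * u ∈ B}
      one_mem' := fun u hu => by simpa using hu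
      mul_mem' := fun {x y} hx hy u hu => by rw [mul_assoc]; exact hx _ (hy u hu)
      zero_mem' := fun u hu => by simp
      add_mem' := fun {x y} hx hy u hu => by rw [add_mul]; exact B.add_mem (hx u hu) (hy u hu)
      neg_mem' := fun {x} hx u hu => by rw [neg_mul]; exact B.neg_mem (hx u hu) }
  letI : Field R := Finite.isDomain_to_isField R |>.toField
  have hζR : (ζ : K) ∈ R := hB
  obtain ⟨d, hdle, hd⟩ : ∃ d ≤ f, Nat.card R = P ^ d := by
    have := AddSubgroup.card_addSubgroup_dvd_card R.toAddSubgroup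
    rw [hcard] at this
    exact (Nat.dvd_prime_pow Fact.out).mp this
  have hRtop : R = ⊤ := by
    have hd0 : d ≠ 0 := fun e => by
      rw [e, pow_zero] at hd
      exact (one_lt_two.trans_le (Nat.succ_le_of_lt
        (Finite.one_lt_card (α := R)))).ne' hd
    have hQd : Q ∣ P ^ d - 1 := by
      have hm : (⟨(ζ : K), hζR⟩ : R) ≠ 0 := fun e => ζ.ne_zero (congrArg Subtype.val e)
      let z : Rˣ := Units.mk0 _ hm
      have hz : orderOf z = Q := by
        rw [← hζ]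
        let ψ : Rˣ →* Kˣ := Units.map (R.subtype : R →* K)
        have hψ : ψ z = ζ := Units.ext rfl
        rw [← hψ, orderOf_injective ψ (Units.map_injective Subtype.val_injective)]
      have := orderOf_dvd_natCard z
      rwa [hz, Nat.card_units, hd] at this
    have hfd : f ∣ d := by
      rw [hf, orderOf_dvd_iff_pow_eq_one]
      rw [← ZMod.natCast_eq_zero_iff, Nat.cast_sub (Nat.one_le_pow _ _ (Fact.out : P.Prime).pos),
        sub_eq_zero] at hQd
      push_cast at hQd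
      exact hQd
    have hfd' : f = d := le_antisymm (Nat.le_of_dvd (Nat.pos_of_ne_zero hd0) hfd) hdle
    rw [eq_top_iff]
    intro x _
    have heq : R.toAddSubgroup = ⊤ :=
      AddSubgroup.eq_top_of_card_eq _ (by rw [hcard]; exact hd.trans (congrArg (P ^ ·) hfd'.symm))
    exact (heq.symm ▸ AddSubgroup.mem_top x : x ∈ R.toAddSubgroup)
  rw [eq_top_iff]
  intro x _
  have := (hRtop.symm ▸ Subring.mem_top (x * b⁻¹) : x * b⁻¹ ∈ R) b hbB
  rwa [inv_mul_cancel_right₀ hb] at this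

end Cfsg.Agent.PrimStruct
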