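import Mathlib

/-! Functions on `ZMod p` determining at most `(p - 1) / 2` directions are affine. -/

namespace Cfsg.Agent.PrimStruct

open Polynomial

variable {p : ℕ} [Fact p.Prime]

theorem sum_eval_eq (Q : (ZMod p)[X]) (hQ : Q.natDegree ≤ p - 1) :
    ∑ x : ZMod p, Q.eval x = -Q.coeff (p - 1) := by
  have hp := (Fact.out : p.Prime).two_le
  have hexp : ∀ x : ZMod p, Q.eval x = ∑ i ∈ Finset.range p, Q.coeff i * x ^ i := fun x =>
    eval_eq_sum_range' (by omega) x
  simp only [hexp]
  rw [Finset.sum_comm]
  simp only [← Finset.mul_sum]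
  have hlast : ∑ x : ZMod p, x ^ (p - 1) = -1 := by
    have h0 : ∀ x : ZMod p, x ^ (p - 1) = if x = 0 then 0 else 1 := by
      intro x
      split_ifs with h
      · rw [h, zero_pow (by omega)]
      · exact ZMod.pow_card_sub_one_eq_one h
    simp only [h0]
    rw [Finset.sum_ite, Finset.sum_const_zero, zero_add, Finset.sum_const, Finset.filter_ne',
      Finset.card_erase_of_mem (Finset.mem_univ _), Finset.card_univ, ZMod.card, nsmul_one,
      Nat.cast_sub (by omega), ZMod.natCast_self]
    simp
  rw [Finset.sum_eq_single (p - 1)]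
  · rw [hlast, mul_neg_one]
  · intro i hi hne
    rw [Finset.mem_range] at hi
    rw [FiniteField.sum_pow_lt_card_sub_one (K := ZMod p) i (by rw [ZMod.card]; omega), mul_zero]
  · intro h
    exact absurd (Finset.mem_range.mpr (by omega)) h

/-- Rédei's theorem on directions, in the form needed here. -/
theorem affine_of_directions (f : ZMod p → ZMod p) (hf : Function.Bijective f)
    (M : Finset (ZMod p)) (hM : 2 * M.card ≤ p - 1)
    (h : ∀ x y, x ≠ y → ∃ a ∈ M, f x - f y = a * (x - y)) : ∃ a b, ∀ x, f x = a * x + b := by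
  classical
  have hp := (Fact.out : p.Prime).two_le
  set P := Lagrange.interpolate Finset.univ id f with hP
  have heval : ∀ x, P.eval x = f x := fun x =>
    Lagrange.eval_interpolate_at_node f (Function.injective_id.injOn) (Finset.mem_univ x)
  have hdeg : P.natDegree ≤ p - 1 := by
    have h1 := Lagrange.degree_interpolate_lt f (s := Finset.univ) (v := id)
      (Function.injective_id.injOn)
    rw [Finset.card_univ, ZMod.card, ← hP] at h1
    rcases eq_or_ne P 0 with h0 | h0
    · rw [h0, natDegree_zero]; omega
    · have := (natDegree_lt_iff_degree_lt h0).mpr h1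
      omega
  rcases Nat.lt_or_ge P.natDegree 2 with hn | hn
  · refine ⟨P.coeff 1, P.coeff 0, fun x => ?_⟩
    rw [← heval, eval_eq_sum_range' hn, Finset.sum_range_succ, Finset.sum_range_one]
    ring
  exfalso
  set n := P.natDegree with hn'
  -- vanishing of the mixed power sums
  have hzero : ∀ i r : ℕ, 1 ≤ i → i + r ≤ p - 2 → 2 * (i + r) ≤ p + 1 →
      ∑ x : ZMod p, f x ^ i * x ^ r = 0 := by
    intro i r hi hjp hj2
    set j := i + r with hj
    let Q : (ZMod p)[X] := ∑ x : ZMod p, (C (f x) - C x * X) ^ j
    have hQdeg : Q.natDegree ≤ j := by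
      refine natDegree_sum_le_of_forall_le _ _ fun x _ => ?_
      refine natDegree_pow_le.trans ?_
      have : (C (f x) - C x * X).natDegree ≤ 1 :=
        (natDegree_sub_le _ _).trans (max_le (by simp) ((natDegree_C_mul_le _ _).trans natDegree_X_le))
      nlinarith
    have hcoeff : ∀ k ≤ j, Q.coeff k =
        (-1) ^ k * (j.choose k : ZMod p) * ∑ x : ZMod p, f x ^ (j - k) * x ^ k := by
      intro k hk
      rw [finsetSum_coeff, Finset.mul_sum]
      refine Finset.sum_congr rfl fun x _ => ?_
      rw [show C (f x) - C x * X = C (-x) * X + C (f x) by rw [map_neg]; ring, add_pow, finsetSum_coeff]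
      rw [Finset.sum_eq_single k]
      · rw [mul_pow, ← C_pow, ← C_pow, ← map_natCast (C : ZMod p →+* (ZMod p)[X])]
        rw [mul_assoc (C ((-x) ^ k)), ← mul_assoc, coeff_mul_C, coeff_mul_C, coeff_C_mul, coeff_X_pow, if_pos rfl]
        rw [neg_pow]
        ring
      · intro l _ hne
        rw [mul_pow, ← C_pow, ← C_pow, ← map_natCast (C : ZMod p →+* (ZMod p)[X])]
        rw [coeff_mul_C, coeff_mul_C, coeff_C_mul, coeff_X_pow, if_neg (Ne.symm hne)]
        ring
      · intro hk'
        exact absurd (Finset.mem_range.mpr (by omega)) hk'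
    have hroots : ∀ c ∈ Mᶜ, Q.eval c = 0 := by
      intro c hc
      rw [Finset.mem_compl] at hc
      have hinj : Function.Injective fun x => f x - x * c := by
        intro x y hxy
        by_contra hne
        obtain ⟨a, ha, hd⟩ := h x y hne
        have hxy' : f x - f y = c * (x - y) := by simp only at hxy; linear_combination hxy
        exact hc (mul_right_cancel₀ (sub_ne_zero.mpr hne) (hd.symm.trans hxy') ▸ ha)
      rw [eval_finsetSum]
      simp only [eval_pow, eval_sub, eval_mul, eval_C, eval_X]
      rw [Fintype.sum_bijective _ (Finite.injective_iff_bijective.mp hinj)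
        (fun x => (f x - x * c) ^ j) (fun y => y ^ j) (fun x => rfl)]
      exact FiniteField.sum_pow_lt_card_sub_one (K := ZMod p) j (by rw [ZMod.card]; omega)
    have htop : Q.coeff j = 0 := by
      rw [hcoeff j le_rfl, Nat.sub_self]
      simp only [pow_zero, one_mul]
      rw [FiniteField.sum_pow_lt_card_sub_one (K := ZMod p) j (by rw [ZMod.card]; omega), mul_zero]
    have hQ0 : Q = 0 := by
      by_contra hQ
      have hlt : Q.natDegree < j := lt_of_le_of_ne hQdeg fun e =>
        hQ (leadingCoeff_eq_zero.mp (by rw [leadingCoeff, e, htop]))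
      have h1 := card_le_degree_of_subset_roots (p := Q) (Z := Mᶜ) (fun c hc =>
        (mem_roots hQ).mpr (hroots c hc))
      rw [Finset.card_compl, ZMod.card] at h1
      omega
    have h1 := hcoeff r (by omega)
    rw [hQ0, coeff_zero, show j - r = i by omega] at h1
    have hch : (j.choose r : ZMod p) ≠ 0 := by
      rw [Ne, ZMod.natCast_eq_zero_iff]
      intro hd
      have h2 : p ∣ j.factorial := by
        rw [← Nat.choose_mul_factorial_mul_factorial (show r ≤ j by omega), mul_assoc]
        exact hd.mul_right _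
      exact absurd ((Nat.Prime.dvd_factorial Fact.out).mp h2) (by omega)
    exact ((mul_eq_zero.mp h1.symm).resolve_left
      (mul_ne_zero (pow_ne_zero _ (neg_ne_zero.mpr one_ne_zero)) hch))
  -- the top coefficient
  obtain ⟨i, r, hr, hir⟩ : ∃ i r, r < n ∧ p - 1 = i * n + r :=
    ⟨(p - 1) / n, (p - 1) % n, Nat.mod_lt _ (by omega), by rw [mul_comm, Nat.div_add_mod]⟩
  have hi : 1 ≤ i := by
    by_contra hi
    obtain rfl : i = 0 := by omega
    simp at hir; omega
  have hbound : 2 * (i + r) ≤ p + 1 ∧ i + r ≤ p - 2 := by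
    have h2 : 2 * i ≤ i * n := by nlinarith
    constructor
    · rcases Nat.lt_or_ge i 2 with h1 | h1
      · obtain rfl : i = 1 := by omega
        omega
      · have : 2 * (i + r) ≤ i * n + r + 2 := by
          rcases Nat.lt_or_ge n 3 with h3 | h3
          · obtain h4 : n = 2 := by omega
            rw [h4] at hr h2 ⊢
            omega
          · nlinarith
        omega
    · have h3 : i + 1 ≤ i * n := by nlinarith
      omega
  have h0 := hzero i r hi hbound.2 hbound.1
  have hsum : ∑ x : ZMod p, f x ^ i * x ^ r = ∑ x : ZMod p, (P ^ i * X ^ r).eval x := by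
    simp [heval]
  have hP0 : P ≠ 0 := ne_zero_of_natDegree_gt (n := 1) (by omega)
  have hdegQ : (P ^ i * X ^ r).natDegree = p - 1 := by
    rw [natDegree_mul (pow_ne_zero _ hP0) (pow_ne_zero _ X_ne_zero), natDegree_pow, natDegree_X_pow,
      show P.natDegree = n from hn'.symm]
    omega
  rw [hsum, sum_eval_eq _ hdegQ.le, neg_eq_zero, ← hdegQ, coeff_natDegree, leadingCoeff_eq_zero] at h0
  exact mul_ne_zero (pow_ne_zero _ hP0) (pow_ne_zero _ X_ne_zero) h0

end Cfsg.Agent.PrimStruct
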