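import Mathlib

/-!
Fixed uniform partitions of permutations of prime order.
-/

set_option autoImplicit false

open Equiv

namespace Cfsg.Agent.PrimStruct

/-- The number of points moved by a permutation. -/
noncomputable def moved {α : Type*} (σ : Perm α) : ℕ := Nat.card {x // σ x ≠ x}

theorem moved_eq {α : Type*} [Fintype α] [DecidableEq α] (σ : Perm α) :
    moved σ = σ.support.card := by
  rw [moved, Nat.card_eq_fintype_card, Fintype.card_subtype]; rfl

theorem dvd_moved {α : Type*} [Finite α] {r : ℕ} (hr : r.Prime) {σ : Perm α} (h : σ ^ r = 1) :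
    r ∣ moved σ := by
  classical
  have := Fintype.ofFinite α
  rw [moved_eq, ← Equiv.Perm.sum_cycleType]
  refine Multiset.dvd_sum fun n hn => ?_
  have h1 : n ∣ r := (Equiv.Perm.dvd_of_mem_cycleType hn).trans (orderOf_dvd_of_pow_eq_one h)
  have h2 := Equiv.Perm.two_le_of_mem_cycleType hn
  rcases (Nat.dvd_prime hr).mp h1 with rfl | rfl
  · omega
  · exact dvd_rfl

theorem cycleType_of_pow_prime {α : Type*} [Fintype α] [DecidableEq α] {r : ℕ} (hr : r.Prime)
    {σ : Perm α} (h : σ ^ r = 1) {j : ℕ} (hj : moved σ = j * r) :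
    σ.cycleType = Multiset.replicate j r := by
  have hall : ∀ n ∈ σ.cycleType, n = r := fun n hn => by
    have h1 : n ∣ r := (Equiv.Perm.dvd_of_mem_cycleType hn).trans (orderOf_dvd_of_pow_eq_one h)
    have h2 := Equiv.Perm.two_le_of_mem_cycleType hn
    exact ((Nat.dvd_prime hr).mp h1).resolve_left (by omega)
  have h1 := Multiset.eq_replicate_card.mpr hall
  have h2 := Equiv.Perm.sum_cycleType σ
  rw [h1, Multiset.sum_replicate, smul_eq_mul, ← moved_eq, hj] at h2
  rw [h1, Nat.eq_of_mul_eq_mul_right hr.pos h2]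

theorem exists_perm_moved (n : ℕ) {r : ℕ} (hr : r.Prime) {c : ℕ} (hc : c * r ≤ n) :
    ∃ π : Perm (Fin n), π ^ r = 1 ∧ moved π = c * r := by
  obtain ⟨π, hπ⟩ := (Equiv.Perm.exists_with_cycleType_iff (α := Fin n) (m := Multiset.replicate c r)).mpr
    ⟨by rw [Multiset.sum_replicate, Fintype.card_fin, smul_eq_mul]; exact hc,
      fun a ha => (Multiset.eq_of_mem_replicate ha) ▸ hr.two_le⟩
  refine ⟨π, ?_, ?_⟩
  · refine orderOf_dvd_iff_pow_eq_one.mp ?_
    rw [← Equiv.Perm.lcm_cycleType, hπ]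
    exact Multiset.lcm_dvd.mpr fun x hx => (Multiset.eq_of_mem_replicate hx).dvd
  · rw [moved_eq, ← Equiv.Perm.sum_cycleType, hπ, Multiset.sum_replicate, smul_eq_mul]

theorem exists_distrib {ι : Type*} [DecidableEq ι] (s : Finset ι) {A t : ℕ} (ht : t ≤ s.card * A) :
    ∃ c : ι → ℕ, (∀ i, c i ≤ A) ∧ ∑ i ∈ s, c i = t := by
  induction s using Finset.induction_on generalizing t with
  | empty => exact ⟨fun _ => 0, fun _ => Nat.zero_le _, by simp at ht ⊢; omega⟩
  | insert x s hx ih =>
    rw [Finset.card_insert_of_notMem hx, add_mul, one_mul] at ht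
    obtain ⟨c, hc, hsum⟩ := ih (t := t - min t A) (by omega)
    refine ⟨Function.update c x (min t A), fun i => ?_, ?_⟩
    · rcases eq_or_ne i x with rfl | h
      · simp
      · rw [Function.update_of_ne h]; exact hc i
    · rw [Finset.sum_insert hx, Function.update_self, Finset.sum_update_of_notMem hx, hsum]
      omega

/-- Does a permutation with `j` cycles of length `r` fix a partition? -/
def CycleCountOK (a b r j : ℕ) : Prop :=
  ∃ s d, b = s * r + d ∧ s * a ≤ j ∧ j ≤ s * a + d * (a / r)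

theorem moved_split {X : Type*} [Finite X] {b : ℕ} (σ : Perm X) (f : X → Fin b) :
    moved σ = ∑ i : Fin b, Nat.card {y : {x // f x = i} // σ y.1 ≠ y.1} := by
  rw [moved, ← Nat.card_sigma]
  exact Nat.card_congr
    { toFun := fun x => ⟨f x.1, ⟨⟨x.1, rfl⟩, x.2⟩⟩
      invFun := fun p => ⟨p.2.1.1, p.2.2⟩
      left_inv := fun x => rfl
      right_inv := by rintro ⟨i, ⟨⟨x, rfl⟩, hx⟩⟩; rfl }

theorem cycleCountOK_of_fixed {a b r : ℕ} (hr : r.Prime) (ha : 0 < a) {X : Type*} [Finite X]
    {σ : Perm X} (hσ : σ ^ r = 1) {j : ℕ} (hj : moved σ = j * r) (f : X → Fin b)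
    (hf : ∀ i, Nat.card {x // f x = i} = a) (π : Perm (Fin b)) (hπ : ∀ x, f (σ x) = π (f x)) :
    CycleCountOK a b r j := by
  classical
  have hiter : ∀ (n : ℕ) x, f ((σ ^ n) x) = (π ^ n) (f x) := by
    intro n
    induction n with
    | zero => simp
    | succ n ih => intro x; rw [pow_succ', pow_succ', Perm.mul_apply, Perm.mul_apply, hπ, ih]
  have hsurj : Function.Surjective f := fun i => by
    obtain ⟨⟨x, hx⟩⟩ := (Nat.card_pos_iff.mp (hf i ▸ ha)).1
    exact ⟨x, hx⟩
  have hπr : π ^ r = 1 := by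
    ext1 i; obtain ⟨x, rfl⟩ := hsurj i
    rw [← hiter, hσ, Perm.one_apply, Perm.one_apply]
  obtain ⟨s, hs⟩ := dvd_moved hr hπr
  set M := π.support
  have hM : M.card = s * r := by rw [← moved_eq, hs, mul_comm]
  set m : Fin b → ℕ := fun i => Nat.card {y : {x // f x = i} // σ y.1 ≠ y.1} with hm
  have hmoved : ∀ i ∈ M, m i = a := fun i hi => by
    rw [← hf i]
    refine Nat.card_congr (Equiv.subtypeUnivEquiv fun y e => ?_)
    have := hπ y.1
    rw [e, y.2] at this
    exact (Perm.mem_support.mp hi) this.symm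
  have hfix : ∀ i ∈ Mᶜ, m i ≤ (a / r) * r ∧ r ∣ m i := fun i hi => by
    rw [Finset.mem_compl, Perm.notMem_support] at hi
    have hmem : ∀ x, f x = i ↔ f (σ x) = i := fun x => by
      rw [hπ]
      exact ⟨fun h => by rw [h, hi], fun h => π.injective (h.trans hi.symm)⟩
    set τ := σ.subtypePerm (p := fun x => f x = i) (fun x => (hmem x).symm) with hτ
    have h1 : m i = moved τ := Nat.card_congr (Equiv.subtypeEquivRight fun y => by
      simp [hτ, Subtype.ext_iff])
    have h2 : r ∣ m i := h1 ▸ dvd_moved hr (by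
      refine Perm.ext fun x => Subtype.ext ?_
      rw [hτ, Perm.subtypePerm_pow]
      change (σ ^ r) x.1 = x.1
      rw [hσ]; rfl)
    have h3 : m i ≤ a := hf i ▸ Finite.card_subtype_le _
    obtain ⟨c, hc⟩ := h2
    refine ⟨?_, ⟨c, hc⟩⟩
    rw [hc, mul_comm r c] at h3 ⊢
    exact Nat.mul_le_mul_right r ((Nat.le_div_iff_mul_le hr.pos).mpr h3)
  have hsum : j * r = s * r * a + ∑ i ∈ Mᶜ, m i := by
    rw [← hj, moved_split σ f, ← Finset.sum_add_sum_compl M, Finset.sum_const_nat hmoved, hM]
  obtain ⟨t, ht⟩ : r ∣ ∑ i ∈ Mᶜ, m i := Finset.dvd_sum fun i hi => (hfix i hi).2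
  have hle : ∑ i ∈ Mᶜ, m i ≤ (b - s * r) * ((a / r) * r) := by
    refine (Finset.sum_le_card_nsmul _ _ _ fun i hi => (hfix i hi).1).trans ?_
    rw [smul_eq_mul, Finset.card_compl, Fintype.card_fin, hM]
  have hMb : s * r ≤ b := hM ▸ (Finset.card_le_univ M).trans (Fintype.card_fin b).le
  refine ⟨s, b - s * r, by omega, ?_, ?_⟩ <;> refine Nat.le_of_mul_le_mul_right ?_ hr.pos
  · rw [hsum, Nat.mul_right_comm]; omega
  · rw [hsum, add_mul, Nat.mul_right_comm, mul_assoc (b - s * r)]; omega

theorem fixed_of_cycleCountOK {a b r : ℕ} (hr : r.Prime) {j : ℕ} (h : CycleCountOK a b r j)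
    {σ : Perm (Fin (a * b))} (hσ : σ ^ r = 1) (hj : moved σ = j * r) :
    ∃ f : Fin (a * b) → Fin b, (∀ i : Fin b, Nat.card {x // f x = i} = a) ∧
      ∃ π : Perm (Fin b), ∀ x, f (σ x) = π (f x) := by
  classical
  obtain ⟨s, d, hb, hs, hd⟩ := h
  obtain ⟨π, hπr, hπm⟩ := exists_perm_moved b hr (c := s) (by omega)
  rw [moved_eq] at hπm
  obtain ⟨c, hc, hcsum⟩ := exists_distrib π.supportᶜ (A := a / r) (t := j - s * a) (by
    rw [Finset.card_compl, Fintype.card_fin, hπm, show b - s * r = d by omega]; omega)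
  choose ρ hρr hρm using fun i : Fin b => exists_perm_moved a hr (c := c i)
    ((Nat.le_div_iff_mul_le hr.pos).mp (hc i))
  let ρ' : Fin b → Perm (Fin a) := fun i => if π i = i then ρ i else 1
  let τ : Perm (Fin b × Fin a) := (Equiv.prodShear π ρ')
  have hτ : ∀ p : Fin b × Fin a, τ p = (π p.1, ρ' p.1 p.2) := fun p => rfl
  have hiter : ∀ (n : ℕ) (p : Fin b × Fin a), (τ ^ n) p = ((π ^ n) p.1, (ρ' p.1 ^ n) p.2) := by
    intro n
    induction n with
    | zero => simp
    | succ n ih =>
      rintro ⟨i, y⟩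
      rw [pow_succ', Perm.mul_apply, ih, hτ, pow_succ', Perm.mul_apply]
      refine Prod.ext rfl ?_
      simp only [pow_succ', Perm.mul_apply]
      by_cases hi : π i = i
      · rw [Perm.pow_apply_eq_self_of_apply_eq_self hi]
      · have : π ((π ^ n) i) ≠ (π ^ n) i := fun e => hi (by
          rw [← Perm.mul_apply, ← pow_succ', pow_succ, Perm.mul_apply] at e
          exact (π ^ n).injective e)
        simp only [ρ', if_neg this, if_neg hi, one_pow]
  have hτr : τ ^ r = 1 := by
    ext1 ⟨i, y⟩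
    rw [hiter, hπr, Perm.one_apply]
    refine Prod.ext rfl ?_
    by_cases hi : π i = i
    · simp [ρ', if_pos hi, hρr]
    · simp [ρ', if_neg hi]
  have hm : moved τ = j * r := by
    rw [moved_split τ Prod.fst, ← Finset.sum_add_sum_compl π.support,
      Finset.sum_const_nat (m := a), hπm, Finset.sum_congr rfl (g := fun i => c i * r), ← Finset.sum_mul,
      hcsum]
    · rw [Nat.mul_right_comm, ← add_mul, Nat.add_sub_cancel' hs]
    · intro i hi
      rw [Finset.mem_compl, Perm.notMem_support] at hi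
      rw [← hρm i]
      exact Nat.card_congr
        { toFun := fun y => ⟨y.1.1.2, by
            obtain ⟨⟨⟨i', z⟩, rfl⟩, hy⟩ := y
            intro e
            exact hy (Prod.ext hi (by simpa [hτ, ρ', if_pos hi] using e))⟩
          invFun := fun y => ⟨⟨(i, y.1), rfl⟩, fun e => y.2 (by
            simpa [hτ, ρ', if_pos hi] using congrArg Prod.snd e)⟩
          left_inv := by rintro ⟨⟨⟨i', z⟩, rfl⟩, hy⟩; rfl
          right_inv := fun y => rfl }
    · intro i hi
      rw [Perm.mem_support] at hi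
      refine Eq.trans ?_ (Nat.card_fin a)
      exact Nat.card_congr
        { toFun := fun y => y.1.1.2
          invFun := fun z => ⟨⟨(i, z), rfl⟩, fun e => hi (congrArg Prod.fst e)⟩
          left_inv := by rintro ⟨⟨⟨i', z⟩, rfl⟩, hy⟩; rfl
          right_inv := fun z => rfl }
  let e : Fin b × Fin a ≃ Fin (a * b) := finProdFinEquiv.trans (finCongr (mul_comm b a))
  let τ' : Perm (Fin (a * b)) := e.permCongr τ
  have hτ'r : τ' ^ r = 1 := by
    change (e.permCongrHom τ) ^ r = 1
    rw [← map_pow, hτr, map_one]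
  have hτ'm : moved τ' = j * r := by
    rw [← hm]
    exact Nat.card_congr (e.symm.subtypeEquiv fun x => by
      change e (τ (e.symm x)) ≠ x ↔ _
      exact not_congr e.apply_eq_iff_eq_symm_apply)
  obtain ⟨g, hg⟩ := isConj_iff.mp (Equiv.Perm.isConj_iff_cycleType_eq.mpr
    ((cycleType_of_pow_prime hr hτ'r hτ'm).trans (cycleType_of_pow_prime hr hσ hj).symm))
  refine ⟨fun x => (e.symm (g⁻¹ x)).1, fun i => ?_, π, fun x => ?_⟩
  · refine Eq.trans ?_ (Nat.card_fin a)
    refine Nat.card_congr (((e.trans g).symm.subtypeEquiv (q := fun p => p.1 = i) fun x => Iff.rfl).trans ?_)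
    exact
      { toFun := fun y => y.1.2
        invFun := fun z => ⟨(i, z), rfl⟩
        left_inv := by rintro ⟨⟨i', z⟩, rfl⟩; rfl
        right_inv := fun z => rfl }
  · rw [← hg]
    simp [τ', Equiv.permCongr_apply, hτ]

theorem cycleCountOK_iff {a b r : ℕ} (ha : 2 ≤ a) (hb : 2 ≤ b) (hr : r.Prime) (hrab : r ≤ a * b) :
    (∀ j, 1 ≤ j → j * r ≤ a * b → CycleCountOK a b r j) ↔
      (r ≤ a ∧ (a % r) * (b % r) < r ∧ (r ≤ b → a % r ≤ (b % r) * (a / r) + 1)) := by
  have hr0 := hr.pos
  have hda := Nat.div_add_mod a r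
  have hdb := Nat.div_add_mod b r
  have hl := Nat.mod_lt a hr0
  have hk := Nat.mod_lt b hr0
  generalize a / r = A at hda ⊢
  generalize a % r = l at hda hl ⊢
  have hP : ∀ j, CycleCountOK a b r j ↔ ∃ s, s ≤ b / r ∧ s * a ≤ j ∧ j ≤ b * A + s * l := by
    intro j
    have hA : a / r = A := by
      rw [← hda, Nat.mul_add_div hr0, Nat.div_eq_of_lt hl, add_zero]
    unfold CycleCountOK
    rw [hA]
    constructor
    · rintro ⟨s, d, h1, h2, h3⟩
      refine ⟨s, (Nat.le_div_iff_mul_le hr0).mpr (by omega), h2, h3.trans (le_of_eq ?_)⟩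
      subst h1 hda; ring
    · rintro ⟨s, h1, h2, h3⟩
      have := (Nat.le_div_iff_mul_le hr0).mp h1
      refine ⟨s, b - s * r, by omega, h2, h3.trans (le_of_eq ?_)⟩
      obtain ⟨d, hd⟩ := Nat.exists_eq_add_of_le this
      rw [hd, Nat.add_sub_cancel_left, ← hda]; ring
  simp only [hP]
  generalize b / r = B at hdb ⊢
  generalize b % r = k at hdb hk ⊢
  subst hda hdb
  constructor
  · intro h
    have hA : 1 ≤ A := by
      by_contra hA
      obtain ⟨s, -, h1, h2⟩ := h 1 le_rfl (by omega)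
      rcases Nat.eq_zero_or_pos s with rfl | hs
      · obtain rfl : A = 0 := by omega
        simp at h2
      · nlinarith
    refine ⟨by nlinarith, ?_, fun hB => ?_⟩
    · by_contra hkl
      push Not at hkl
      obtain ⟨s, hs, -, h2⟩ := h ((r * B + k) * A + B * l + 1) (by omega) (by nlinarith)
      have : s * l ≤ B * l := Nat.mul_le_mul_right l hs
      omega
    · by_contra hgap
      push Not at hgap
      have hB1 : 1 ≤ B := by
        by_contra hB0
        obtain rfl : B = 0 := by omega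
        omega
      obtain ⟨B', rfl⟩ := Nat.exists_eq_add_of_le hB1
      obtain ⟨s, hs, h1, h2⟩ := h ((r * (1 + B') + k) * A + B' * l + 1) (by omega) (by nlinarith)
      rcases Nat.lt_or_ge s (1 + B') with hs' | hs'
      · have : s * l ≤ B' * l := Nat.mul_le_mul_right l (by omega)
        omega
      · obtain rfl : s = 1 + B' := by omega
        nlinarith
  · rintro ⟨hA, hkl, hgap⟩ j hj hjab
    have hA1 : 1 ≤ A := by
      by_contra h
      obtain rfl : A = 0 := by omega
      omega
    have htop : j ≤ (r * B + k) * A + B * l := by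
      by_contra h
      push Not at h
      nlinarith
    have hex : ∃ s, j ≤ (r * B + k) * A + s * l := ⟨B, htop⟩
    classical
    refine ⟨Nat.find hex, Nat.find_min' hex htop, ?_, Nat.find_spec hex⟩
    rcases hs : Nat.find hex with _ | s
    · simp
    · have h1 := Nat.find_min hex (m := s) (by omega)
      have h2 : s + 1 ≤ B := hs ▸ Nat.find_min' hex htop
      have h3 := hgap (by nlinarith)
      push Not at h1
      have h4 : (s + 1) * (r * A) ≤ B * (r * A) := Nat.mul_le_mul_right _ h2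
      nlinarith

end Cfsg.Agent.PrimStruct
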